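import Mathlib
import Cfsg.Agent.Lib.SolvableMinNormal
set_option linter.all false

/-!
# Fixed points of elements of prime order in transitive solvable groups (helper457)

`card_fixedBy_mul_le` : `G` solvable, transitive on `Ω`, `|Ω| > 1`, `y` of prime order `p`, `G = ⟨y^G⟩`:
`y` fixes at most `|Ω| / p` points.
-/

set_option autoImplicit false

namespace Cfsg.Agent.H457.Half

open Subgroup

variable {G : Type*} [Group G] [Finite G]

/-- counting fixed points of an element of order `p` on a normal subgroup -/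
theorem card_modEq_centralizer {A : Subgroup G} [hAn : A.Normal] {p : ℕ} [hp : Fact p.Prime] {y : G}
    (hy : orderOf y = p) : Nat.card A ≡ Nat.card (A ⊓ centralizer ({y} : Set G) : Subgroup G) [MOD p] := by
  classical
  set C : Subgroup G := A ⊓ centralizer ({y} : Set G) with hC
  have hCA : C ≤ A := inf_le_left
  let act : MulAction (zpowers y) A :=
    MulAction.compHom A ((MulAut.conjNormal : G →* MulAut A).comp (zpowers y).subtype)
  have hact : ∀ (z : zpowers y) (a : A), ((z • a : A) : G) = (z : G) * a * (z : G)⁻¹ := fun z a =>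
    MulAut.conjNormal_apply (z : G) a
  have hPg : IsPGroup p (zpowers y) := IsPGroup.of_card (n := 1) (by rw [Nat.card_zpowers, hy, pow_one])
  have hmod := hPg.card_modEq_card_fixedPoints A
  have hfix : Nat.card (MulAction.fixedPoints (zpowers y) A) = Nat.card C := by
    refine Nat.card_congr
      { toFun := fun a => ⟨(a : A), mem_inf.2 ⟨a.1.2, ?_⟩⟩
        invFun := fun c => ⟨⟨c, hCA c.2⟩, ?_⟩
        left_inv := fun a => rfl
        right_inv := fun c => rfl }
    · rw [mem_centralizer_singleton_iff]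
      have h1 := congrArg Subtype.val (a.2 ⟨y, mem_zpowers y⟩)
      rw [hact] at h1
      calc ((a : A) : G) * y = (y * (a : A) * y⁻¹) * y := by rw [h1]
        _ = y * (a : A) := by group
    · rintro ⟨z, hz⟩
      apply Subtype.ext
      rw [hact]
      have h1 : y ∈ centralizer ({(c : G)} : Set G) := by
        rw [mem_centralizer_singleton_iff]
        exact (mem_centralizer_singleton_iff.1 (mem_inf.1 c.2).2).symm
      have h2 := mem_centralizer_singleton_iff.1 ((zpowers_le.2 h1) hz)
      change z * (c : G) * z⁻¹ = c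
      rw [h2]; group
  rwa [hfix] at hmod

/-- an element of order `p` acting nontrivially on an abelian `r`-group fixes at most the `p`-th part of the elements -/
theorem card_centralizer_mul_le {A : Subgroup G} [hAn : A.Normal] {r p : ℕ} [Fact r.Prime] [hp : Fact p.Prime]
    (hA : IsPGroup r A) {y : G} (hy : orderOf y = p) (hne : ¬ A ≤ centralizer ({y} : Set G)) :
    p * Nat.card (A ⊓ centralizer ({y} : Set G) : Subgroup G) ≤ Nat.card A := by
  classical
  set C : Subgroup G := A ⊓ centralizer ({y} : Set G) with hC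
  have hCA : C ≤ A := inf_le_left
  have hj : C.relIndex A * Nat.card C = Nat.card A := by
    have h := Subgroup.relIndex_mul_relIndex (⊥ : Subgroup G) C A bot_le hCA
    rw [Subgroup.relIndex_bot_left, Subgroup.relIndex_bot_left] at h
    rw [mul_comm]
    exact h
  have hj1 : 1 < C.relIndex A := by
    have h0 : C.relIndex A ≠ 0 := by
      intro h
      rw [h, zero_mul] at hj
      exact Nat.card_pos.ne hj
    have h1 : C.relIndex A ≠ 1 := by
      intro h
      rw [Subgroup.relIndex_eq_one] at h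
      exact hne (h.trans inf_le_right)
    omega
  have hmod : Nat.card A ≡ Nat.card C [MOD p] := card_modEq_centralizer hy
  rw [← hj] at hmod
  -- `j |C| ≡ |C|`
  rcases em (p ∣ Nat.card C) with hpC | hpC
  · -- `r = p`
    have h1 : p ∣ Nat.card A := hpC.trans (Subgroup.card_dvd_of_le hCA)
    obtain ⟨m, hm⟩ := IsPGroup.iff_card.mp hA
    rw [hm] at h1
    have h2 : p = r := (Nat.prime_dvd_prime_iff_eq hp.out Fact.out).1 (hp.out.dvd_of_dvd_pow h1)
    have h3 : C.relIndex A ∣ p ^ m := by
      rw [h2, ← hm, ← hj]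
      exact dvd_mul_right _ _
    obtain ⟨i, -, hi⟩ := (Nat.dvd_prime_pow hp.out).1 h3
    have hi0 : i ≠ 0 := by
      rintro rfl
      rw [pow_zero] at hi
      omega
    have h4 : p ≤ C.relIndex A := by
      rw [hi]
      exact Nat.le_self_pow hi0 p
    rw [← hj]
    exact Nat.mul_le_mul_right _ h4
  · have h1 : C.relIndex A ≡ 1 [MOD p] := by
      have h2 : Nat.gcd p (Nat.card C) = 1 := (Nat.Prime.coprime_iff_not_dvd hp.out).2 hpC
      refine Nat.ModEq.cancel_right_of_coprime h2 ?_
      rw [one_mul]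
      exact hmod
    have h3 : p ≤ C.relIndex A - 1 := by
      have h4 : p ∣ C.relIndex A - 1 := (Nat.modEq_iff_dvd' hj1.le).1 h1.symm
      exact Nat.le_of_dvd (by omega) h4
    rw [← hj]
    exact Nat.mul_le_mul_right _ (by omega)

/-- the case of a core-free maximal subgroup -/
theorem card_core_free [Group.IsSolvable G] {p : ℕ} [hp : Fact p.Prime] (M : Subgroup G) (hM : IsCoatom M)
    (hcore : M.normalCore = ⊥) {y : G} (hyM : y ∈ M) (hy : orderOf y = p) (hgen : normalClosure ({y} : Set G) = ⊤) :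
    p * Nat.card {g : G // g⁻¹ * y * g ∈ M} ≤ Nat.card G := by
  classical
  have hy1 : y ≠ 1 := by
    rintro rfl
    rw [orderOf_one] at hy
    exact hp.out.one_lt.ne hy
  have hnt : Nontrivial G := ⟨y, 1, hy1⟩
  obtain ⟨r, hr, A, hAc, hAab, hAr, hAb⟩ := Lib.SolvableMinNormal.exists_characteristic_pgroup (G := G)
  have hfr : Fact r.Prime := ⟨hr⟩
  have hAn : A.Normal := inferInstance
  have hAcomm : ∀ a ∈ A, ∀ b ∈ A, a * b = b * a := fun a ha b hb =>
    congrArg Subtype.val (hAab.is_comm.comm ⟨a, ha⟩ ⟨b, hb⟩)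
  have hle : ∀ N : Subgroup G, N.Normal → N ≤ M → N = ⊥ := by
    intro N hN hNM
    rw [eq_bot_iff, ← hcore]
    exact Subgroup.normal_le_normalCore.2 hNM
  have hAM : ¬ A ≤ M := fun h => hAb (hle A hAn h)
  have hsup : A ⊔ M = ⊤ := by
    refine hM.2 _ (lt_of_le_of_ne le_sup_right ?_)
    intro h
    exact hAM (h ▸ le_sup_left)
  have hmul : ∀ g : G, ∃ a ∈ A, ∃ m ∈ M, g = a * m := by
    intro g
    have h1 : g ∈ A ⊔ M := by rw [hsup]; trivial
    rw [Subgroup.mem_sup_of_normal_left] at h1
    obtain ⟨a, ha, m, hm, h⟩ := h1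
    exact ⟨a, ha, m, hm, h.symm⟩
  have hinf : A ⊓ M = ⊥ := by
    refine hle _ ⟨?_⟩ inf_le_right
    intro x hx g
    obtain ⟨a, ha, m, hm, rfl⟩ := hmul g
    obtain ⟨hxA, hxM⟩ := mem_inf.1 hx
    have h1 : m * x * m⁻¹ ∈ A := hAn.conj_mem x hxA m
    have h2 : m * x * m⁻¹ ∈ M := mul_mem (mul_mem hm hxM) (inv_mem hm)
    have h3 : a * m * x * (a * m)⁻¹ = m * x * m⁻¹ := by
      calc a * m * x * (a * m)⁻¹ = a * (m * x * m⁻¹) * a⁻¹ := by group
        _ = (m * x * m⁻¹) * a * a⁻¹ := by rw [hAcomm a ha _ h1]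
        _ = m * x * m⁻¹ := by group
    rw [h3]
    exact mem_inf.2 ⟨h1, h2⟩
  have hnc : ¬ A ≤ centralizer ({y} : Set G) := by
    intro h
    have h1 : y ∈ centralizer (A : Set G) := by
      rw [mem_centralizer_iff]
      intro a ha
      exact mem_centralizer_singleton_iff.1 (h ha)
    have h2 : centralizer (A : Set G) = ⊤ := by
      rw [eq_top_iff, ← hgen]
      exact Subgroup.normalClosure_le_normal (by simpa using h1)
    have h3 : ∀ a ∈ A, ∀ g : G, a * g = g * a := fun a ha g => by
      have h4 : g ∈ centralizer (A : Set G) := by rw [h2]; trivial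
      exact mem_centralizer_iff.1 h4 a ha
    have h4 : M.Normal := by
      refine ⟨fun x hx g => ?_⟩
      obtain ⟨a, ha, m, hm, rfl⟩ := hmul g
      have h5 : a * m * x * (a * m)⁻¹ = m * x * m⁻¹ := by
        calc a * m * x * (a * m)⁻¹ = a * (m * x * m⁻¹) * a⁻¹ := by group
          _ = (m * x * m⁻¹) * a * a⁻¹ := by rw [h3 a ha]
          _ = m * x * m⁻¹ := by group
      rw [h5]
      exact mul_mem (mul_mem hm hx) (inv_mem hm)
    have h5 := hle M h4 le_rfl
    rw [h5, mem_bot] at hyM
    exact hy1 hyM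
  have h1 := card_centralizer_mul_le hAr hy hnc
  set C : Subgroup G := A ⊓ centralizer ({y} : Set G) with hC
  -- `|X| ≤ |C| |M|`
  have h2 : Nat.card {g : G // g⁻¹ * y * g ∈ M} ≤ Nat.card C * Nat.card M := by
    rw [← Nat.card_prod]
    have h3 : ∀ g : {g : G // g⁻¹ * y * g ∈ M}, ∃ q : C × M, (g : G) = q.1 * q.2 := by
      rintro ⟨g, hg⟩
      obtain ⟨a, ha, m, hm, rfl⟩ := hmul g
      refine ⟨⟨⟨a, mem_inf.2 ⟨ha, ?_⟩⟩, ⟨m, hm⟩⟩, rfl⟩
      have h4 : a⁻¹ * y * a ∈ M := by
        have e : a⁻¹ * y * a = m * ((a * m)⁻¹ * y * (a * m)) * m⁻¹ := by group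
        rw [e]
        exact mul_mem (mul_mem hm hg) (inv_mem hm)
      have h5 : y⁻¹ * (a⁻¹ * y * a) ∈ A ⊓ M := by
        refine mem_inf.2 ⟨?_, mul_mem (inv_mem hyM) h4⟩
        have e : y⁻¹ * (a⁻¹ * y * a) = (y⁻¹ * a⁻¹ * y⁻¹⁻¹) * a := by group
        rw [e]
        exact mul_mem (hAn.conj_mem _ (inv_mem ha) y⁻¹) ha
      rw [hinf, mem_bot] at h5
      rw [mem_centralizer_singleton_iff]
      have h6 : a⁻¹ * y * a = y := by
        calc a⁻¹ * y * a = y * (y⁻¹ * (a⁻¹ * y * a)) := by group
          _ = y := by rw [h5, mul_one]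
      calc a * y = a * (a⁻¹ * y * a) := by rw [h6]
        _ = y * a := by group
    choose f hf using h3
    refine Nat.card_le_card_of_injective f ?_
    intro g g' hgg
    apply Subtype.ext
    rw [hf g, hf g', hgg]
  -- `|A| |M| ≤ |G|`
  have h3 : Nat.card A * Nat.card M ≤ Nat.card G := by
    rw [← Nat.card_prod]
    refine Nat.card_le_card_of_injective (fun q : A × M => (q.1 : G) * q.2) ?_
    rintro ⟨a, m⟩ ⟨a', m'⟩ h
    have h4 : (a'⁻¹ : G) * a ∈ A ⊓ M := by
      refine mem_inf.2 ⟨mul_mem (inv_mem a'.2) a.2, ?_⟩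
      have h : (a : G) * m = a' * m' := h
      have e : (a'⁻¹ : G) * a = m' * (m : G)⁻¹ := by
        calc (a'⁻¹ : G) * a = (a' : G)⁻¹ * (a * m) * (m : G)⁻¹ := by group
          _ = (a' : G)⁻¹ * (a' * m') * (m : G)⁻¹ := by rw [h]
          _ = m' * (m : G)⁻¹ := by group
      rw [e]
      exact mul_mem m'.2 (inv_mem m.2)
    rw [hinf, mem_bot, inv_mul_eq_one] at h4
    have h5 : a = a' := Subtype.ext h4.symm
    subst h5
    have h6 : (a : G) * m = a * m' := h
    rw [Prod.mk.injEq]
    exact ⟨rfl, Subtype.ext (mul_left_cancel h6)⟩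
  calc p * Nat.card {g : G // g⁻¹ * y * g ∈ M} ≤ p * (Nat.card C * Nat.card M) := Nat.mul_le_mul_left p h2
    _ = (p * Nat.card C) * Nat.card M := by ring
    _ ≤ Nat.card A * Nat.card M := Nat.mul_le_mul_right _ h1
    _ ≤ _ := h3

/-- the case of a maximal subgroup containing `y` -/
theorem card_maximal_of_mem_aux [Group.IsSolvable G] {p : ℕ} [hp : Fact p.Prime] (M : Subgroup G) (hM : IsCoatom M)
    {y : G} (hyM : y ∈ M) (hy : orderOf y = p) (hgen : normalClosure ({y} : Set G) = ⊤)
    (K : Subgroup G) [hKn : K.Normal] (hKM : K ≤ M) (hKmax : ∀ N : Subgroup G, N.Normal → N ≤ M → N ≤ K) :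
    p * Nat.card {g : G // g⁻¹ * y * g ∈ M} ≤ Nat.card G := by
  classical
  let π : G →* G ⧸ K := QuotientGroup.mk' K
  have hπ : Function.Surjective π := QuotientGroup.mk'_surjective K
  have hker : π.ker = K := QuotientGroup.ker_mk' K
  set M' : Subgroup (G ⧸ K) := M.map π with hM'
  have hcomap : M'.comap π = M := by
    rw [hM', Subgroup.comap_map_eq, hker, sup_eq_left.2 hKM]
  have hM'c : IsCoatom M' := by
    refine ⟨?_, ?_⟩
    · intro h
      apply hM.1
      rw [← hcomap, h, Subgroup.comap_top]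
    · intro L hL
      have h1 : M < L.comap π := by
        refine lt_of_le_of_ne ?_ ?_
        · rw [← hcomap]
          exact Subgroup.comap_mono hL.le
        · intro h
          apply hL.ne
          rw [hM', h, Subgroup.map_comap_eq_self_of_surjective hπ]
      have h2 := hM.2 _ h1
      rw [← Subgroup.map_comap_eq_self_of_surjective hπ L, h2, ← MonoidHom.range_eq_map,
        MonoidHom.range_eq_top.2 hπ]
  have hcore : M'.normalCore = ⊥ := by
    have h1 : (M'.normalCore).comap π ≤ K := by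
      refine hKmax _ inferInstance ?_
      calc (M'.normalCore).comap π ≤ M'.comap π := Subgroup.comap_mono M'.normalCore_le
        _ = M := hcomap
    rw [eq_bot_iff, ← Subgroup.map_comap_eq_self_of_surjective hπ M'.normalCore]
    refine (Subgroup.map_mono h1).trans ?_
    rw [le_bot_iff, Subgroup.map_eq_bot_iff, hker]
  have hyK : y ∉ K := by
    intro h
    apply hM.1
    rw [eq_top_iff, ← hgen]
    exact (Subgroup.normalClosure_le_normal (by simpa using h)).trans hKM
  have hy' : orderOf (π y) = p := by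
    have h1 : orderOf (π y) ∣ p := hy ▸ orderOf_map_dvd π y
    rcases (Nat.dvd_prime hp.out).1 h1 with h | h
    · exfalso
      rw [orderOf_eq_one_iff] at h
      exact hyK ((QuotientGroup.eq_one_iff y).1 h)
    · exact h
  have hgen' : normalClosure ({π y} : Set (G ⧸ K)) = ⊤ := by
    have h1 : (⊤ : Subgroup G) ≤ (normalClosure ({π y} : Set (G ⧸ K))).comap π := by
      rw [← hgen]
      refine Subgroup.normalClosure_le_normal ?_
      rw [Set.singleton_subset_iff]
      exact Subgroup.subset_normalClosure rfl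
    rw [eq_top_iff, ← Subgroup.map_comap_eq_self_of_surjective hπ (normalClosure ({π y} : Set (G ⧸ K)))]
    rw [← MonoidHom.range_eq_top.2 hπ, MonoidHom.range_eq_map]
    exact Subgroup.map_mono h1
  have h1 := card_core_free M' hM'c hcore (y := π y) ⟨y, hyM, rfl⟩ hy' hgen'
  have h2 : Nat.card {g : G // g⁻¹ * y * g ∈ M} = Nat.card K * Nat.card {g : G ⧸ K // g⁻¹ * π y * g ∈ M'} := by
    rw [← Nat.card_prod]
    have e := QuotientGroup.preimageMkEquivSubgroupProdSet K {g : G ⧸ K | g⁻¹ * π y * g ∈ M'}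
    refine (Nat.card_congr ?_).trans (Nat.card_congr e)
    refine Equiv.subtypeEquivRight fun g => ?_
    have h3 : g⁻¹ * y * g ∈ M ↔ π (g⁻¹ * y * g) ∈ M' := by
      rw [← Subgroup.mem_comap, hcomap]
    rw [h3, map_mul, map_mul, map_inv]
    exact Iff.rfl
  have h3 : Nat.card G = Nat.card K * Nat.card (G ⧸ K) := by
    rw [← Subgroup.card_mul_index K, Subgroup.index_eq_card]
  rw [h2, h3]
  calc p * (Nat.card K * Nat.card {g : G ⧸ K // g⁻¹ * π y * g ∈ M'})
      = Nat.card K * (p * Nat.card {g : G ⧸ K // g⁻¹ * π y * g ∈ M'}) := by ring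
    _ ≤ _ := Nat.mul_le_mul_left _ h1

/-- the case of a maximal subgroup containing `y` -/
theorem card_maximal_of_mem [Group.IsSolvable G] {p : ℕ} [hp : Fact p.Prime] (M : Subgroup G) (hM : IsCoatom M)
    {y : G} (hyM : y ∈ M) (hy : orderOf y = p) (hgen : normalClosure ({y} : Set G) = ⊤) :
    p * Nat.card {g : G // g⁻¹ * y * g ∈ M} ≤ Nat.card G :=
  card_maximal_of_mem_aux M hM hyM hy hgen M.normalCore M.normalCore_le
    (fun _ _ hNM => Subgroup.normal_le_normalCore.2 hNM)

/-- the case of a maximal subgroup -/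
theorem card_maximal [Group.IsSolvable G] {p : ℕ} [hp : Fact p.Prime] (M : Subgroup G) (hM : IsCoatom M)
    {y : G} (hy : orderOf y = p) (hgen : normalClosure ({y} : Set G) = ⊤) :
    p * Nat.card {g : G // g⁻¹ * y * g ∈ M} ≤ Nat.card G := by
  classical
  by_cases h : ∃ g₀ : G, g₀⁻¹ * y * g₀ ∈ M
  · obtain ⟨g₀, hg₀⟩ := h
    have h1 : orderOf (g₀⁻¹ * y * g₀) = p := by
      have := orderOf_injective (MulAut.conj g₀⁻¹).toMonoidHom (MulAut.conj g₀⁻¹).injective y
      rw [← hy, ← this]
      simp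
    have h2 : normalClosure ({g₀⁻¹ * y * g₀} : Set G) = ⊤ := by
      rw [eq_top_iff, ← hgen]
      refine Subgroup.normalClosure_le_normal ?_
      rw [Set.singleton_subset_iff]
      have h3 : g₀⁻¹ * y * g₀ ∈ normalClosure ({g₀⁻¹ * y * g₀} : Set G) := Subgroup.subset_normalClosure rfl
      have h4 := Subgroup.normalClosure_normal.conj_mem _ h3 g₀
      have e : g₀ * (g₀⁻¹ * y * g₀) * g₀⁻¹ = y := by group
      rwa [e] at h4
    have h3 := card_maximal_of_mem M hM hg₀ h1 h2
    have h4 : Nat.card {g : G // g⁻¹ * y * g ∈ M} = Nat.card {g : G // g⁻¹ * (g₀⁻¹ * y * g₀) * g ∈ M} := by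
      refine Nat.card_congr
        { toFun := fun g => ⟨g₀⁻¹ * g, ?_⟩
          invFun := fun g => ⟨g₀ * g, ?_⟩
          left_inv := fun g => Subtype.ext (mul_inv_cancel_left _ _)
          right_inv := fun g => Subtype.ext (inv_mul_cancel_left _ _) }
      · have e : (g₀⁻¹ * (g : G))⁻¹ * (g₀⁻¹ * y * g₀) * (g₀⁻¹ * g) = (g : G)⁻¹ * y * g := by group
        rw [e]; exact g.2
      · have e : (g₀ * (g : G))⁻¹ * y * (g₀ * g) = (g : G)⁻¹ * (g₀⁻¹ * y * g₀) * g := by group
        rw [e]; exact g.2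
    rw [h4]
    exact h3
  · have h1 : IsEmpty {g : G // g⁻¹ * y * g ∈ M} := ⟨fun g => h ⟨g, g.2⟩⟩
    rw [Nat.card_of_isEmpty, mul_zero]
    exact Nat.zero_le _

/-- **Fixed points in a transitive action of a solvable group generated by the conjugates of `y`.** -/
theorem card_fixedBy_mul_le [Group.IsSolvable G] {Ω : Type*} [MulAction G Ω] [MulAction.IsPretransitive G Ω]
    [Finite Ω] (hΩ : 1 < Nat.card Ω) {p : ℕ} [hp : Fact p.Prime] {y : G} (hy : orderOf y = p)
    (hgen : normalClosure ({y} : Set G) = ⊤) : p * Nat.card (MulAction.fixedBy Ω y) ≤ Nat.card Ω := by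
  classical
  have hne : Nonempty Ω := (Nat.card_pos_iff.1 (by omega)).1
  obtain ⟨ω⟩ := hne
  set H : Subgroup G := MulAction.stabilizer G ω with hH
  have hidx : H.index = Nat.card Ω := MulAction.index_stabilizer_of_transitive G ω
  have hHt : H ≠ ⊤ := by
    intro h
    rw [h, Subgroup.index_top] at hidx
    omega
  obtain ⟨M, hM, hHM⟩ := (eq_top_or_exists_le_coatom H).resolve_left hHt
  have h1 := card_maximal M hM hy hgen
  -- `|Fix| |H| ≤ |X_M|`
  have h2 : Nat.card (MulAction.fixedBy Ω y) * Nat.card H ≤ Nat.card {g : G // g⁻¹ * y * g ∈ M} := by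
    rw [← Nat.card_prod]
    have h3 : ∀ w : Ω, ∃ g : G, g • ω = w := fun w => MulAction.exists_smul_eq G ω w
    choose s hs using h3
    refine Nat.card_le_card_of_injective (fun q : MulAction.fixedBy Ω y × H => ⟨s q.1 * q.2, ?_⟩) ?_
    · apply hHM
      change _ ∈ MulAction.stabilizer G ω
      rw [MulAction.mem_stabilizer_iff]
      have h4 : (q.2 : G) • ω = ω := q.2.2
      have h5 : y • (q.1 : Ω) = q.1 := q.1.2
      rw [mul_smul, mul_smul, mul_smul, h4, hs, h5, inv_smul_eq_iff, mul_smul, h4, hs]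
    · rintro ⟨w, a⟩ ⟨w', a'⟩ h
      have h4 : s w * (a : G) = s w' * a' := congrArg Subtype.val h
      have ha : (a : G) • ω = ω := a.2
      have ha' : (a' : G) • ω = ω := a'.2
      have h5 : (w : Ω) = w' := by
        have h6 := congrArg (fun g : G => g • ω) h4
        simp only [mul_smul, ha, ha', hs] at h6
        exact h6
      have h6 : w = w' := Subtype.ext h5
      subst h6
      rw [Prod.mk.injEq]
      exact ⟨rfl, Subtype.ext (mul_left_cancel h4)⟩
  have h3 : Nat.card G = Nat.card Ω * Nat.card H := by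
    rw [← hidx, Subgroup.index_mul_card]
  have h4 : 0 < Nat.card H := Nat.card_pos
  refine Nat.le_of_mul_le_mul_right ?_ h4
  calc p * Nat.card (MulAction.fixedBy Ω y) * Nat.card H
      = p * (Nat.card (MulAction.fixedBy Ω y) * Nat.card H) := by ring
    _ ≤ p * Nat.card {g : G // g⁻¹ * y * g ∈ M} := Nat.mul_le_mul_left p h2
    _ ≤ Nat.card G := h1
    _ = _ := h3

end Cfsg.Agent.H457.Half
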